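import Cfsg.Agent.Classical.LowIso
import Cfsg.Agent.S0281

/-! Words that are not laws: `NL w H` (some value of `w` in `H` is not central); ping-pong in `SL₂(F[X])`;
transport to alternating and classical groups. -/

namespace Cfsg.Agent.Pool10
open Subgroup Cfsg Matrix Polynomial
open scoped MatrixGroups

/-- some value of the word is not central -/
def NL (w : FreeGroup ℕ) (H : Type*) [Group H] : Prop := ∃ f : ℕ → H, FreeGroup.lift f w ∉ center H

variable {w : FreeGroup ℕ} {H G : Type*} [Group H] [Group G]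

theorem map_lift (φ : H →* G) (f : ℕ → H) : φ (FreeGroup.lift f w) = FreeGroup.lift (φ ∘ f) w :=
  FreeGroup.lift_unique (φ.comp (FreeGroup.lift f)) (by simp)

theorem NL.of_inj (h : NL w H) (φ : H →* G) (hφ : Function.Injective φ) : NL w G := by
  obtain ⟨f, hf⟩ := h
  refine ⟨φ ∘ f, fun e => hf (mem_center_iff.2 fun y => hφ ?_)⟩
  rw [map_mul, map_mul, map_lift]
  exact mem_center_iff.1 e _

theorem NL.quot (h : NL w H) : ∃ f : ℕ → H ⧸ center H, FreeGroup.lift f w ≠ 1 := by
  obtain ⟨f, hf⟩ := h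
  refine ⟨QuotientGroup.mk' _ ∘ f, fun e => hf ?_⟩
  rwa [← map_lift, QuotientGroup.mk'_apply, QuotientGroup.eq_one_iff] at e

theorem NL.ne_one (h : NL w H) : ∃ f : ℕ → H, FreeGroup.lift f w ≠ 1 :=
  let ⟨f, hf⟩ := h; ⟨f, fun e => hf (e ▸ one_mem _)⟩

section pingpong
variable {F : Type*} [Field F]

/-- upper unipotent -/
noncomputable def pE (p : F[X]) : SL(2, F[X]) := ⟨!![1, p; 0, 1], by simp [det_fin_two_of]⟩
/-- lower unipotent -/
noncomputable def pL (p : F[X]) : SL(2, F[X]) := ⟨!![1, 0; p, 1], by simp [det_fin_two_of]⟩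

theorem pE_mul (p q : F[X]) : pE p * pE q = pE (p + q) :=
  Subtype.ext (show !![1, p; 0, 1] * !![1, q; 0, 1] = !![1, p + q; 0, 1] by simp [add_comm])

theorem pL_mul (p q : F[X]) : pL p * pL q = pL (p + q) :=
  Subtype.ext (show !![1, 0; p, 1] * !![1, 0; q, 1] = !![1, 0; p + q, 1] by simp)

/-- the natural action -/
noncomputable def act (M : SL(2, F[X])) (v : Fin 2 → F[X]) : Fin 2 → F[X] := (M : Matrix (Fin 2) (Fin 2) F[X]) *ᵥ v

theorem act_mul (M N : SL(2, F[X])) (v : Fin 2 → F[X]) : act (M * N) v = act M (act N v) :=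
  (mulVec_mulVec v _ _).symm

theorem act_one (v : Fin 2 → F[X]) : act 1 v = v := one_mulVec v

theorem act_smul (M : SL(2, F[X])) (c : F[X]) (v : Fin 2 → F[X]) : act M (c • v) = c • act M v := mulVec_smul _ _ _

theorem pE_zero : pE (0 : F[X]) = 1 := by
  ext i j; fin_cases i <;> fin_cases j <;> simp [pE]

theorem pL_zero : pL (0 : F[X]) = 1 := by
  ext i j; fin_cases i <;> fin_cases j <;> simp [pL]

theorem pE_inv (p : F[X]) : (pE p)⁻¹ = pE (-p) := inv_eq_of_mul_eq_one_right (by rw [pE_mul, add_neg_cancel, pE_zero])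
theorem pL_inv (p : F[X]) : (pL p)⁻¹ = pL (-p) := inv_eq_of_mul_eq_one_right (by rw [pL_mul, add_neg_cancel, pL_zero])

/-- first coordinate dominates -/
def X1 (v : Fin 2 → F[X]) : Prop := (v 1).degree < (v 0).degree
/-- second coordinate dominates -/
def X2 (v : Fin 2 → F[X]) : Prop := (v 0).degree < (v 1).degree

theorem deg_aux {p a b : F[X]} (hp : 0 < p.natDegree) (h : a.degree < b.degree) : b.degree < (a + p * b).degree := by
  have hp0 : p ≠ 0 := by rintro rfl; simp at hp
  have hb : b ≠ 0 := by rintro rfl; simp at h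
  have a2 : b.degree < (p * b).degree := degree_lt_degree (by rw [natDegree_mul hp0 hb]; omega)
  rwa [degree_add_eq_right_of_degree_lt (h.trans a2)]

theorem X2.E {p : F[X]} (hp : 0 < p.natDegree) {v : Fin 2 → F[X]} (h : X2 v) : X1 (act (pE p) v) := by
  simpa [X1, act, pE, mulVec, dotProduct, Fin.sum_univ_two] using deg_aux hp h

theorem X1.L {p : F[X]} (hp : 0 < p.natDegree) {v : Fin 2 → F[X]} (h : X1 v) : X2 (act (pL p) v) := by
  simpa [X2, act, pL, mulVec, dotProduct, Fin.sum_univ_two, add_comm] using deg_aux hp h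

theorem good {a b : ℕ} (h : a ≠ b) : 0 < (X ^ a + -X ^ b : F[X]).natDegree := by
  rcases lt_or_gt_of_ne h with h | h
  · rw [natDegree_add_eq_right_of_natDegree_lt (by simpa)]; simp; omega
  · rw [natDegree_add_eq_left_of_natDegree_lt (by simpa)]; simp; omega

/-- the matrices substituted for the letters -/
noncomputable def gen (F : Type*) [Field F] (i : ℕ) : SL(2, F[X]) := pE (X ^ (i + 2)) * pL (X ^ (i + 2))

/-- ping-pong states -/
def St (n : ℕ) : Bool → (Fin 2 → F[X]) → Prop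
  | true, v => ∃ y, X2 y ∧ v = act (pE (X ^ n)) y
  | false, v => ∃ y, X1 y ∧ v = act (pL (-X ^ n)) y

theorem step {n : ℕ} (hn : 0 < n) {b : Bool} {v : Fin 2 → F[X]} (h : St n b v) (x : ℕ × Bool)
    (hx : x.1 + 2 = n → x.2 = b) : St (x.1 + 2) x.2 (act (cond x.2 (gen F x.1) (gen F x.1)⁻¹) v) := by
  obtain ⟨i, c⟩ := x
  have g1 : 0 < (X ^ n : F[X]).natDegree := by simpa
  have g1' : 0 < (-X ^ n : F[X]).natDegree := by simpa
  have g2 : 0 < (X ^ (i + 2) : F[X]).natDegree := by simp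
  have g2' : 0 < (-X ^ (i + 2) : F[X]).natDegree := by simp
  cases c <;> cases b <;> obtain ⟨y, hy, rfl⟩ := h <;>
    simp only [gen, St, cond_true, cond_false, _root_.mul_inv_rev, pE_inv, pL_inv, act_mul]
  · exact ⟨_, (hy.L g1').E g2', rfl⟩
  · refine ⟨_, ?_, rfl⟩
    rw [← act_mul, pE_mul, add_comm]
    exact hy.E (good (by simpa [eq_comm] using hx))
  · refine ⟨_, ?_, rfl⟩
    rw [← act_mul, pL_mul]
    exact hy.L (good (by simpa using hx))
  · exact ⟨_, (hy.E g1).L g2, rfl⟩

theorem chain {v : Fin 2 → F[X]} (h : St 1 true v) (x : ℕ × Bool) (L : List (ℕ × Bool))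
    (hL : FreeGroup.IsReduced (x :: L)) :
    St (x.1 + 2) x.2 (act ((x :: L).map fun x => cond x.2 (gen F x.1) (gen F x.1)⁻¹).prod v) := by
  induction L generalizing x with
  | nil => simpa using step one_pos h x (by omega)
  | cons y L ih =>
    rw [FreeGroup.isReduced_cons_cons] at hL
    rw [List.map_cons, List.prod_cons, act_mul]
    exact step (by omega) (ih y hL.2) x fun e => hL.1 (by omega)

theorem X1.smul {c : F[X]} {v : Fin 2 → F[X]} (h : X1 v) : ¬ X2 (c • v) := fun h' => by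
  simp only [X1, X2, Pi.smul_apply, smul_eq_mul, degree_mul] at h h'
  exact absurd h' (not_lt.2 (add_le_add_right h.le _))

theorem gen_not_scalar (hw : w ≠ 1) (c : F[X]) : 
    ((FreeGroup.lift (gen F) w : SL(2, F[X])) : Matrix (Fin 2) (Fin 2) F[X]) ≠ c • (1 : Matrix (Fin 2) (Fin 2) F[X]) := by
  intro h
  obtain ⟨x, L, hL⟩ := List.exists_cons_of_ne_nil (FreeGroup.toWord_eq_nil_iff.not.2 hw)
  have h1 : X2 (![0, 1] : Fin 2 → F[X]) := by simp [X2]
  have h2 := chain (v := act (pE (X ^ 1)) ![0, 1]) ⟨_, h1, rfl⟩ x L (hL ▸ FreeGroup.isReduced_toWord)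
  rw [← hL, ← FreeGroup.lift_mk, FreeGroup.mk_toWord, act, h, smul_mulVec, one_mulVec] at h2
  obtain ⟨i, b⟩ := x
  cases b <;> obtain ⟨y, hy, e⟩ := h2
  · refine (h1.E (p := X ^ 1) (by simp)).smul (c := c) ?_
    rw [e]; exact hy.L (by simp)
  · have := congrArg (act (pE (-X ^ (i + 2)))) e
    rw [act_smul, ← act_mul, ← act_mul, pE_mul, pE_mul, neg_add_cancel, pE_zero, act_one, add_comm] at this
    exact (h1.E (good (a := 1) (b := i + 2) (by omega))).smul (this ▸ hy)

/-- degree bound for the entries -/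
def Bd (n : ℕ) (M : SL(2, F[X])) : Prop := ∀ i j, ((M : Matrix (Fin 2) (Fin 2) F[X]) i j).natDegree ≤ n

theorem Bd.mul {n k : ℕ} {M N : SL(2, F[X])} (h : Bd n M) (h' : Bd k N) : Bd (n + k) (M * N) :=
  fun i j => by
    change (((M : Matrix (Fin 2) (Fin 2) F[X]) * (N : Matrix (Fin 2) (Fin 2) F[X])) i j).natDegree ≤ _
    rw [Matrix.mul_apply]
    exact natDegree_sum_le_of_forall_le _ _ fun l _ => natDegree_mul_le.trans (add_le_add (h _ _) (h' _ _))

theorem bd_prod (L : List (ℕ × Bool)) : Bd ((L.map fun x => 2 * (x.1 + 2)).sum)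
    (L.map fun x => cond x.2 (gen F x.1) (gen F x.1)⁻¹).prod := by
  induction L with
  | nil => intro i j; fin_cases i <;> fin_cases j <;> simp
  | cons x L ih =>
    rw [List.map_cons, List.map_cons, List.prod_cons, List.sum_cons]
    refine Bd.mul ?_ ih
    have h1 : ∀ p : F[X], Bd p.natDegree (pE p) := fun p i j => by fin_cases i <;> fin_cases j <;> simp [pE]
    have h2 : ∀ p : F[X], Bd p.natDegree (pL p) := fun p i j => by fin_cases i <;> fin_cases j <;> simp [pL]
    obtain ⟨i, c⟩ := x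
    cases c <;> simp only [gen, cond_true, cond_false, _root_.mul_inv_rev, pE_inv, pL_inv]
    · convert (h2 _).mul (h1 _) using 1; simp; ring
    · convert (h1 _).mul (h2 _) using 1; simp; ring

theorem NL_SL2 [Finite F] (hw : w ≠ 1) (h : (w.toWord.map fun x => 2 * (x.1 + 2)).sum < Nat.card F) :
    NL w SL(2, F) := by
  have := Fintype.ofFinite F
  by_contra hn
  simp only [NL, not_exists, not_not] at hn
  set M := FreeGroup.lift (gen F) w with hM
  have hb : Bd (w.toWord.map fun x => 2 * (x.1 + 2)).sum M := by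
    have := bd_prod (F := F) w.toWord
    rwa [← FreeGroup.lift_mk, FreeGroup.mk_toWord] at this
  refine gen_not_scalar hw ((M : Matrix (Fin 2) (Fin 2) F[X]) 0 0) ?_
  rw [← sub_eq_zero]
  ext1 i j
  refine eq_zero_of_natDegree_lt_card_of_eval_eq_zero _ Function.injective_id (fun t => ?_) ?_
  · have := hn (SpecialLinearGroup.map (evalRingHom t) ∘ gen F)
    rw [← map_lift, Matrix.SpecialLinearGroup.mem_center_iff] at this
    obtain ⟨r, -, hr⟩ := this
    have h1 : ∀ i j, eval t ((M : Matrix (Fin 2) (Fin 2) F[X]) i j) = scalar (Fin 2) r i j := fun i j => (congrFun (congrFun hr i) j).symm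
    fin_cases i <;> fin_cases j <;> simp [← hM, h1]
  · rw [← Nat.card_eq_fintype_card]
    refine lt_of_le_of_lt ((natDegree_sub_le _ _).trans (max_le (hb i j) ?_)) h
    rw [Matrix.smul_apply, Matrix.one_apply]; split_ifs <;> simp [hb 0 0]

end pingpong

/-- a finite perfect group in which the word is not a law modulo the centre -/
theorem exists_perfect_NL (hw : w ≠ 1) : ∃ (H : Type) (_ : Group H) (_ : Finite H), commutator H = ⊤ ∧ NL w H := by
  obtain ⟨p, h1, hp⟩ := Nat.exists_infinite_primes ((w.toWord.map fun x => 2 * (x.1 + 2)).sum + 4)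
  have := Fact.mk hp
  exact ⟨SL(2, ZMod p), inferInstance, inferInstance, Classical.commutator_SL2 (by rw [Nat.card_zmod]; omega),
    NL_SL2 hw (by rw [Nat.card_zmod]; omega)⟩

theorem exists_perm [Finite H] {n : ℕ} (h : Nat.card H ≤ n) : ∃ φ : H →* Equiv.Perm (Fin n), Function.Injective φ := by
  have := Fintype.ofFinite H
  obtain ⟨ι⟩ : Nonempty (H ↪ Fin n) := Function.Embedding.nonempty_of_card_le (by simpa using h)
  exact ⟨(Equiv.Perm.viaEmbeddingHom ι).comp (MulAction.toPermHom H H),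
    (Equiv.Perm.viaEmbeddingHom_injective ι).comp MulAction.toPerm_injective⟩

theorem eq_one_of_perfect (hp : commutator H = ⊤) {A : Type*} [CommGroup A] (φ : H →* A) (h : H) : φ h = 1 :=
  Abelianization.commutator_subset_ker φ (hp ▸ mem_top h)

theorem NL.alt [Finite H] (hp : commutator H = ⊤) (h : NL w H) {n : ℕ} (hn : Nat.card H ≤ n) :
    NL w (alternatingGroup (Fin n)) := by
  obtain ⟨φ, hφ⟩ := exists_perm hn
  exact h.of_inj (φ.codRestrict _ fun x => Equiv.Perm.mem_alternatingGroup.2 (eq_one_of_perfect hp (Equiv.Perm.sign.comp φ) x))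
    fun a b e => hφ (congrArg Subtype.val e)

section matrices
variable {F : Type*} [Field F] {a b : Type} [Fintype a] [Fintype b] [DecidableEq a] [DecidableEq b]

/-- block sum -/
def blk (ρ : H →* Matrix a a F) (σ : H →* Matrix b b F) : H →* Matrix (a ⊕ b) (a ⊕ b) F where
  toFun h := fromBlocks (ρ h) 0 0 (σ h)
  map_one' := by simp
  map_mul' x y := by simp [fromBlocks_multiply]

/-- contragredient -/
def dual (ρ : H →* Matrix a a F) : H →* Matrix a a F where
  toFun h := (ρ h⁻¹)ᵀ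
  map_one' := by simp
  map_mul' x y := by simp

theorem blk_inj_left {ρ : H →* Matrix a a F} (σ : H →* Matrix b b F) (h : Function.Injective ρ) :
    Function.Injective (blk ρ σ) := fun _ _ e => h (fromBlocks_inj.1 e).1

theorem blk_inj_right (ρ : H →* Matrix a a F) {σ : H →* Matrix b b F} (h : Function.Injective σ) :
    Function.Injective (blk ρ σ) := fun _ _ e => h (fromBlocks_inj.1 e).2.2.2

theorem blk_mulVec (ρ : H →* Matrix a a F) (σ : H →* Matrix b b F) (h : H) (v : a ⊕ b → F) :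
    blk ρ σ h *ᵥ v = Sum.elim (ρ h *ᵥ (v ∘ Sum.inl)) (σ h *ᵥ (v ∘ Sum.inr)) := by
  simp [blk, fromBlocks_mulVec]

theorem dot_dual (ρ : H →* Matrix a a F) (h : H) (x y : a → F) : (ρ h *ᵥ x) ⬝ᵥ (dual ρ h *ᵥ y) = x ⬝ᵥ y := by
  change (ρ h *ᵥ x) ⬝ᵥ ((ρ h⁻¹)ᵀ *ᵥ y) = _
  rw [dotProduct_mulVec, vecMul_transpose, mulVec_mulVec, ← map_mul, inv_mul_cancel, map_one, one_mulVec]

theorem det_eq_one (hp : commutator H = ⊤) (ρ : H →* Matrix a a F) (h : H) : (ρ h).det = 1 :=
  congrArg Units.val (eq_one_of_perfect hp ((detMonoidHom.comp ρ).toHomUnits) h)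

/-- into the special linear group -/
def toSL (hp : commutator H = ⊤) (ρ : H →* Matrix a a F) : H →* SpecialLinearGroup a F where
  toFun h := ⟨ρ h, det_eq_one hp ρ h⟩
  map_one' := Subtype.ext (map_one ρ)
  map_mul' x y := Subtype.ext (map_mul ρ x y)

/-- extension by the identity -/
def extn {k n : ℕ} (hk : k ≤ n) (ρ : H →* Matrix (Fin k) (Fin k) F) : H →* Matrix (Fin n) (Fin n) F :=
  (reindexAlgEquiv F F (finSumFinEquiv.trans (finCongr (Nat.add_sub_cancel' hk)))).toMulEquiv.toMonoidHom.comp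
    (blk ρ (1 : H →* Matrix (Fin (n - k)) (Fin (n - k)) F))

theorem extn_inj {k n : ℕ} (hk : k ≤ n) {ρ : H →* Matrix (Fin k) (Fin k) F} (h : Function.Injective ρ) :
    Function.Injective (extn hk ρ) := fun _ _ e => blk_inj_left _ h ((reindexAlgEquiv F F _).injective e)

theorem extn_herm {k n q : ℕ} (hk : k ≤ n) {ρ : H →* Matrix (Fin k) (Fin k) F}
    (h : ∀ x u v, hermForm k F q (ρ x *ᵥ u) (ρ x *ᵥ v) = hermForm k F q u v) (x : H) (u v : Fin n → F) :
    hermForm n F q (extn hk ρ x *ᵥ u) (extn hk ρ x *ᵥ v) = hermForm n F q u v := by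
  set e := finSumFinEquiv.trans (finCongr (Nat.add_sub_cancel' hk))
  have h1 : ∀ u, extn hk ρ x *ᵥ u = (blk ρ (1 : H →* Matrix (Fin (n - k)) (Fin (n - k)) F) x *ᵥ (u ∘ e)) ∘ e.symm :=
    fun u => submatrix_mulVec_equiv _ _ _ _
  have h2 := h x ((u ∘ e) ∘ Sum.inl) ((v ∘ e) ∘ Sum.inl)
  simp only [hermForm, h1, blk_mulVec] at h2 ⊢
  rw [← e.sum_comp, ← e.sum_comp fun i => u i * v i ^ q, Fintype.sum_sum_type, Fintype.sum_sum_type]
  simp only [Function.comp_apply, Equiv.symm_apply_apply, Sum.elim_inl, Sum.elim_inr, MonoidHom.one_apply, one_mulVec] at h2 ⊢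
  rw [h2]

variable (hp : commutator H = ⊤) (h : NL w H)
include hp h

theorem NL.sl {ρ : H →* Matrix a a F} (hρ : Function.Injective ρ) : NL w (SpecialLinearGroup a F) :=
  h.of_inj (toSL hp ρ) fun _ _ e => hρ (congrArg Subtype.val e)

theorem NL.su {n q : ℕ} {ρ : H →* Matrix (Fin n) (Fin n) F} (hρ : Function.Injective ρ)
    (hh : ∀ x u v, hermForm n F q (ρ x *ᵥ u) (ρ x *ᵥ v) = hermForm n F q u v) : NL w (SU n F q) :=
  h.of_inj ((toSL hp ρ).codRestrict _ hh) fun _ _ e => hρ (congrArg (fun x : SU n F q => x.1.1) e)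

omit hp in
theorem NL.sp {ρ : H →* Matrix a a F} (hρ : Function.Injective ρ) : NL w (symplecticGroup a F) := by
  let φ : H →* symplecticGroup a F := (blk ρ (dual ρ)).codRestrict _ fun x => by
    rw [SymplecticGroup.mem_iff]
    simp [blk, dual, J, fromBlocks_multiply, fromBlocks_transpose, ← map_mul, ← transpose_mul]
  exact h.of_inj φ fun _ _ e => blk_inj_left _ hρ (congrArg Subtype.val e)

theorem NL.omega {Q : (a → F) → F} {ρ : H →* Matrix a a F} (hρ : Function.Injective ρ)
    (hQ : ∀ x v, Q (ρ x *ᵥ v) = Q v) : NL w (Omega F Q) := by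
  let φ : H →* isometryGroup F Q := ρ.toHomUnits.codRestrict _ fun x u _ => hQ x u
  have : ∀ x, φ x ∈ Omega F Q := fun x => by
    have h1 : φ x ∈ (commutator H).map φ := ⟨x, hp ▸ mem_top x, rfl⟩
    rw [commutator_def, map_commutator] at h1
    exact commutator_mono le_top le_top h1
  exact h.of_inj (φ.codRestrict _ this) fun _ _ e => hρ (congrArg (fun x : Omega F Q => x.1.1.1) e)

variable {m : ℕ} {ρ : H →* Matrix (Fin m) (Fin m) F} (hρ : Function.Injective ρ)
include hρ

theorem NL.plus : NL w (Omega F (quadFormPlus m F)) :=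
  h.omega hp (blk_inj_left (dual ρ) hρ) fun x v => by
    simpa [quadFormPlus, blk_mulVec, dotProduct] using dot_dual ρ x (v ∘ Sum.inl) (v ∘ Sum.inr)

theorem NL.odd : NL w (Omega F (quadFormOdd m F)) :=
  h.omega hp (blk_inj_right (1 : H →* Matrix Unit Unit F) (blk_inj_left (dual ρ) hρ)) fun x v => by
    simpa [quadFormOdd, blk_mulVec, dotProduct] using dot_dual ρ x ((v ∘ Sum.inr) ∘ Sum.inl) ((v ∘ Sum.inr) ∘ Sum.inr)

theorem NL.minus (c d : F) : NL w (Omega F (quadFormMinus m F c d)) :=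
  h.omega hp (blk_inj_left (1 : H →* Matrix (Fin 2) (Fin 2) F) (blk_inj_left (dual ρ) hρ)) fun x v => by
    simpa [quadFormMinus, blk_mulVec, dotProduct] using dot_dual ρ x ((v ∘ Sum.inl) ∘ Sum.inl) ((v ∘ Sum.inl) ∘ Sum.inr)

end matrices

theorem permMatrixHom_inj {F : Type*} [Field F] {n : ℕ} :
    Function.Injective (permMatrixHom : Equiv.Perm (Fin n) →* Matrix (Fin n) (Fin n) F) := by
  rw [injective_iff_map_eq_one]
  intro σ h
  rw [← inv_eq_one]
  refine Equiv.ext fun i => ?_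
  have := congrFun (congrFun h i) i
  by_contra e
  rw [permMatrixHom_apply, Equiv.Perm.permMatrix, PEquiv.toMatrix_apply, if_neg (by simpa using e), one_apply_eq] at this
  exact zero_ne_one this

end Cfsg.Agent.Pool10
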